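import Mathlib

/-!
# Group lemmas: commuting actions with antichain orbit lengths

* `stab_eq_of_antichain`: all non-trivial elements have the same stabiliser.
* `card_fixed_mul`: counting the fixed points of a compatible automorphism.
-/

set_option autoImplicit false
set_option linter.style.haveILetI false

namespace CfsgLib.NoDiv

variable {H Y : Type*} [Group H] [CommGroup Y] (φ : H →* MulAut Y)

/-- The stabiliser of a point. -/
def stab (y : Y) : Subgroup H where
  carrier := {h | φ h y = y}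
  one_mem' := by simp
  mul_mem' {a b} ha hb := by simp_all
  inv_mem' {a} ha := by
    simp only [Set.mem_ofPred_eq] at *
    rw [map_inv, MulAut.inv_apply, MulEquiv.symm_apply_eq, ha]

theorem mem_stab {y : Y} {h : H} : h ∈ stab φ y ↔ φ h y = y := Iff.rfl

theorem stab_inv (y : Y) : stab φ y⁻¹ = stab φ y := by
  ext h; simp [mem_stab, map_inv]

/-- The subgroup generated by an orbit. -/
def orbitSpan (y : Y) : Subgroup Y := Subgroup.closure (Set.range fun h => φ h y)

theorem self_mem_orbitSpan (y : Y) : y ∈ orbitSpan φ y :=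
  Subgroup.subset_closure ⟨1, by simp⟩

theorem apply_mem_orbitSpan {y z : Y} (h : H) (hz : z ∈ orbitSpan φ y) : φ h z ∈ orbitSpan φ y := by
  unfold orbitSpan at *
  induction hz using Subgroup.closure_induction with
  | mem x hx =>
    obtain ⟨k, rfl⟩ := hx
    exact Subgroup.subset_closure ⟨h * k, by simp⟩
  | one => simp
  | mul a b _ _ ha hb => rw [map_mul]; exact mul_mem ha hb
  | inv a _ ha => rw [map_inv]; exact inv_mem ha

theorem stab_le_of_mem_orbitSpan (hc : ∀ a b y, φ a (φ b y) = φ b (φ a y)) {y z : Y}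
    (hz : z ∈ orbitSpan φ y) : stab φ y ≤ stab φ z := by
  intro h hh
  rw [mem_stab] at *
  unfold orbitSpan at hz
  induction hz using Subgroup.closure_induction with
  | mem x hx => obtain ⟨k, rfl⟩ := hx; rw [hc, hh]
  | one => simp
  | mul a b _ _ ha hb => rw [map_mul, ha, hb]
  | inv a _ ha => rw [map_inv, ha]

theorem eq_of_le_of_index [Finite H] {A B : Subgroup H} (hle : A ≤ B) (h : A.index = B.index) :
    A = B := by
  refine Subgroup.eq_of_le_of_card_ge hle (le_of_eq ?_)
  have h1 := A.card_mul_index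
  have h2 := B.card_mul_index
  rw [h, ← h2] at h1
  exact (Nat.eq_of_mul_eq_mul_right (Nat.pos_of_ne_zero Subgroup.index_ne_zero_of_finite) h1).symm

/-- Orbit lengths forming an antichain force a common stabiliser. -/
theorem stab_eq_of_antichain [Finite H] (hc : ∀ a b y, φ a (φ b y) = φ b (φ a y))
    (hdiv : ∀ x y : Y, x ≠ 1 → y ≠ 1 → (stab φ x).index ∣ (stab φ y).index →
      (stab φ x).index = (stab φ y).index) {x y : Y} (hx : x ≠ 1) (hy : y ≠ 1) :
    stab φ x = stab φ y := by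
  have hsame : ∀ u z : Y, u ≠ 1 → z ≠ 1 → z ∈ orbitSpan φ u → stab φ u = stab φ z := by
    intro u z hu hz hzu
    have hle := stab_le_of_mem_orbitSpan φ hc hzu
    exact eq_of_le_of_index hle (hdiv z u hz hu (Subgroup.index_dvd_of_le hle)).symm
  by_cases hmeet : ∃ z, z ≠ 1 ∧ z ∈ orbitSpan φ x ∧ z ∈ orbitSpan φ y
  · obtain ⟨z, hz, hzx, hzy⟩ := hmeet
    rw [hsame x z hx hz hzx, hsame y z hy hz hzy]
  by_cases hw : x * y = 1
  · rw [eq_inv_of_mul_eq_one_left hw, stab_inv]
  have hle : stab φ (x * y) ≤ stab φ x ⊓ stab φ y := by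
    intro h hh
    rw [mem_stab, map_mul] at hh
    have he : φ h x * x⁻¹ = y * (φ h y)⁻¹ := by
      rw [eq_mul_inv_iff_mul_eq, mul_right_comm, hh, mul_comm x y, mul_inv_cancel_right]
    have h1 : φ h x * x⁻¹ = 1 := by
      by_contra hne
      exact hmeet ⟨_, hne, mul_mem (apply_mem_orbitSpan φ h (self_mem_orbitSpan φ x))
        (inv_mem (self_mem_orbitSpan φ x)), he ▸ mul_mem (self_mem_orbitSpan φ y)
        (inv_mem (apply_mem_orbitSpan φ h (self_mem_orbitSpan φ y)))⟩
    refine ⟨mul_inv_eq_one.1 h1, ?_⟩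
    rw [he, mul_inv_eq_one] at h1
    exact h1.symm
  have hx' : stab φ (x * y) = stab φ x := by
    have h1 := hle.trans inf_le_left
    exact eq_of_le_of_index h1 (hdiv x _ hx hw (Subgroup.index_dvd_of_le h1)).symm
  have hy' : stab φ (x * y) = stab φ y := by
    have h1 := hle.trans inf_le_right
    exact eq_of_le_of_index h1 (hdiv y _ hy hw (Subgroup.index_dvd_of_le h1)).symm
  rw [← hx', hy']

/-- An endomorphism without non-trivial fixed points fixes no non-trivial linear character. -/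
theorem hom_eq_one_of_fpf {A M : Type*} [Group A] [Finite A] [CommGroup M] (f : A →* A)
    (hf : ∀ a, f a = a → a = 1) (χ : A →* M) (h : ∀ a, χ (f a) = χ a) : χ = 1 := by
  have hinj : Function.Injective fun a => a⁻¹ * f a := by
    intro a b hab
    have h1 : f (b * a⁻¹) = b * a⁻¹ := by
      simp only at hab
      have h2 : f b = b * (a⁻¹ * f a) := by rw [hab, mul_inv_cancel_left]
      rw [map_mul, map_inv, h2]; group
    exact (mul_inv_eq_one.1 (hf _ h1)).symm
  refine MonoidHom.ext fun b => ?_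
  obtain ⟨a, ha⟩ := Finite.surjective_of_injective hinj b
  rw [← ha, MonoidHom.one_apply, map_mul, map_inv, h, inv_mul_cancel]

/-- If `α` fixes `s` and `α x = x * s` then powers of `s` follow the iterates of `α`. -/
theorem iterate_apply_of_fix {A : Type*} [Group A] (α : MulAut A) {x s : A} (hs : α s = s)
    (hx : α x = x * s) (m : ℕ) : (α ^ m) x = x * s ^ m := by
  induction m with
  | zero => simp
  | succ m ih => rw [pow_succ', MulAut.mul_apply, ih, map_mul, hx, map_pow, hs, mul_assoc,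
      ← pow_succ']

theorem eq_one_of_coprime_pow {A : Type*} [Group A] {s : A} {m n : ℕ} (hmn : m.Coprime n)
    (hm : s ^ m = 1) (hn : s ^ n = 1) : s = 1 := by
  have := pow_gcd_eq_one.2 ⟨hm, hn⟩
  rwa [hmn, pow_one] at this

/-- A coprime automorphism fixing all elements of order `q` of an abelian `q`-group is trivial. -/
theorem apply_eq_self_of_fix {A : Type*} [CommGroup A] {q m : ℕ} (hm : m.Coprime q)
    (α : MulAut A) (hα : α ^ m = 1) (hfix : ∀ x, x ^ q = 1 → α x = x) (k : ℕ) :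
    ∀ x : A, x ^ q ^ k = 1 → α x = x := by
  induction k with
  | zero => intro x hx; rw [pow_zero, pow_one] at hx; rw [hx, map_one]
  | succ k ih =>
    intro x hx
    have h1 : α (x ^ q) = x ^ q := ih _ (by rwa [← pow_mul, ← pow_succ'])
    set s := x⁻¹ * α x with hs
    have hsq : s ^ q = 1 := by rw [hs, mul_pow, ← map_pow, h1, inv_pow, inv_mul_cancel]
    have h2 := iterate_apply_of_fix α (hfix s hsq) (x := x) (by rw [hs, mul_inv_cancel_left]) m
    rw [hα, MulAut.one_apply, left_eq_mul] at h2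
    have h3 := eq_one_of_coprime_pow hm h2 hsq
    rw [hs, inv_mul_eq_one] at h3
    exact h3.symm

/-- An orbit preserved by a compatible automorphism of prime power order `r` has a fixed point
when its length is prime to `r`. -/
theorem exists_fixed_in_orbit [Finite H] [Finite Y] (α : MulAut H) (β : MulAut Y)
    (hcompat : ∀ h y, β (φ h y) = φ (α h) (β y)) {r a : ℕ} [Fact r.Prime] (hβ : β ^ r ^ a = 1)
    (y : Y) (horb : ∃ h, β y = φ h y) (hr : ¬ r ∣ (stab φ y).index) :
    ∃ h, β (φ h y) = φ h y := by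
  classical
  letI : MulAction H Y := MulAction.compHom Y φ
  set O := MulAction.orbit H y with hO
  have hst : MulAction.stabilizer H y = stab φ y := rfl
  have hcard : Nat.card O = (stab φ y).index := by
    rw [← hst, Subgroup.index, Nat.card_congr (MulAction.orbitEquivQuotientStabilizer H y)]
  let P := Subgroup.zpowers β
  have hP : IsPGroup r P := IsPGroup.of_card (n := ?_) ?_
  rotate_left
  · exact (orderOf β).factorization r
  · rw [Nat.card_zpowers]
    obtain ⟨k, -, hk⟩ := (Nat.dvd_prime_pow (Fact.out : r.Prime)).1 (orderOf_dvd_of_pow_eq_one hβ)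
    rw [hk, Nat.Prime.factorization_pow (Fact.out : r.Prime), Finsupp.single_eq_same]
  have hmap : ∀ z ∈ O, β z ∈ O := by
    rintro _ ⟨h, rfl⟩
    obtain ⟨k, hk⟩ := horb
    refine ⟨α h * k, ?_⟩
    show φ (α h * k) y = β (φ h y)
    rw [hcompat, hk, map_mul, MulAut.mul_apply]
  have hmapP : ∀ σ ∈ P, ∀ z ∈ O, σ z ∈ O := by
    intro σ hσ z hz
    obtain ⟨n, rfl⟩ := mem_powers_iff_mem_zpowers.2 hσ
    induction n generalizing z with
    | zero => simpa using hz
    | succ n ih =>
      show (β ^ (n + 1)) z ∈ O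
      rw [pow_succ, MulAut.mul_apply]
      exact ih (β z) (hmap z hz) (Subgroup.pow_mem _ (Subgroup.mem_zpowers β) n)
  letI : MulAction P O :=
    { smul := fun σ z => ⟨(σ : MulAut Y) z, hmapP σ σ.2 z z.2⟩
      one_smul := fun z => Subtype.ext rfl
      mul_smul := fun σ τ z => Subtype.ext rfl }
  obtain ⟨⟨z, hz⟩, hzfix⟩ := hP.nonempty_fixed_point_of_prime_not_dvd_card O (hcard ▸ hr)
  obtain ⟨h, rfl⟩ := hz
  exact ⟨h, congrArg Subtype.val (hzfix ⟨β, Subgroup.mem_zpowers β⟩)⟩

/-- Fixed points of a compatible automorphism in a union of orbits. -/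
theorem card_fixed_mul [Finite H] [Finite Y] (α : MulAut H) (β : MulAut Y)
    (hcompat : ∀ h y, β (φ h y) = φ (α h) (β y)) {r a : ℕ} [Fact r.Prime] (hβ : β ^ r ^ a = 1)
    (horb : ∀ y : Y, y ≠ 1 → ∃ h, β y = φ h y)
    (hr : ∀ y : Y, y ≠ 1 → ¬ r ∣ (stab φ y).index) (F : Subgroup H)
    (hF : ∀ y : Y, y ≠ 1 → β y = y → ∀ h, (α h)⁻¹ * h ∈ stab φ y ↔ h ∈ F) :
    Nat.card {y : Y // y ≠ 1 ∧ β y = y} * Nat.card H = Nat.card {y : Y // y ≠ 1} * Nat.card F := by
  classical
  haveI := Fintype.ofFinite H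
  haveI := Fintype.ofFinite Y
  let T := H × {y : Y // y ≠ 1 ∧ β y = y}
  let π : T → {y : Y // y ≠ 1} := fun t => ⟨φ t.1 t.2.1, fun e => t.2.2.1 ((MulEquiv.map_eq_one_iff _).1 e)⟩
  have hfib : ∀ y : {y : Y // y ≠ 1}, Nat.card {t : T // π t = y} = Nat.card F := by
    rintro ⟨y, hy⟩
    obtain ⟨h₀, hh₀⟩ := exists_fixed_in_orbit φ α β hcompat hβ y (horb y hy) (hr y hy)
    set x₀ := φ h₀ y with hx₀
    have hx₀1 : x₀ ≠ 1 := fun e => hy ((MulEquiv.map_eq_one_iff _).1 e)
    have hfix : ∀ h, β (φ h x₀) = φ h x₀ ↔ h ∈ F := by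
      intro h
      rw [← hF x₀ hx₀1 hh₀ h, mem_stab, map_mul, MulAut.mul_apply, map_inv, MulAut.inv_apply,
        MulEquiv.symm_apply_eq, hcompat, hh₀]
      exact eq_comm
    have hy' : ∀ h, φ (h * h₀)⁻¹ (φ h x₀) = y := by
      intro h
      rw [hx₀, ← MulAut.mul_apply, ← MulAut.mul_apply, ← map_mul, ← map_mul]
      rw [show (h * h₀)⁻¹ * h * h₀ = 1 by group, map_one, MulAut.one_apply]
    refine Nat.card_congr (Equiv.ofBijective (fun t => (⟨t.1.1⁻¹ * h₀⁻¹, (hfix _).1 ?_⟩ : F)) ⟨?_, ?_⟩)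
    · have ht : φ t.1.1 t.1.2.1 = y := congrArg Subtype.val t.2
      have h1 : φ (t.1.1⁻¹ * h₀⁻¹) x₀ = t.1.2.1 := by
        rw [hx₀, ← MulAut.mul_apply, ← map_mul, inv_mul_cancel_right, map_inv, MulAut.inv_apply,
          MulEquiv.symm_apply_eq, ht]
      rw [h1, t.1.2.2.2]
    · intro t t' htt
      have h1 : t.1.1 = t'.1.1 := by
        have h3 : t.1.1⁻¹ * h₀⁻¹ = t'.1.1⁻¹ * h₀⁻¹ := congrArg Subtype.val htt
        exact inv_injective (mul_right_cancel h3)
      refine Subtype.ext (Prod.ext h1 (Subtype.ext ((φ t.1.1).injective ?_)))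
      rw [show φ t.1.1 t.1.2.1 = y from congrArg Subtype.val t.2, h1,
        show φ t'.1.1 t'.1.2.1 = y from congrArg Subtype.val t'.2]
    · rintro ⟨k, hk⟩
      refine ⟨⟨⟨(k * h₀)⁻¹, φ k x₀, fun e => hx₀1 ?_, (hfix k).2 hk⟩, Subtype.ext (hy' k)⟩,
        Subtype.ext ?_⟩
      · exact (MulEquiv.map_eq_one_iff _).1 e
      · show (k * h₀)⁻¹⁻¹ * h₀⁻¹ = k
        group
  have h1 : Nat.card T = Nat.card {y : Y // y ≠ 1} * Nat.card F := by
    rw [← Nat.card_congr (Equiv.sigmaFiberEquiv π), Nat.card_sigma, Finset.sum_congr rfl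
      (fun y _ => hfib y), Finset.sum_const, Finset.card_univ, smul_eq_mul, ← Nat.card_eq_fintype_card]
  rw [Nat.card_prod, mul_comm] at h1
  exact h1

/-- Two powers with the same ratio are equal. -/
theorem not_ratio_eq {r : ℕ} (hr : 2 ≤ r) {a i b j : ℕ} (hba : b < a) (hjb : j < b) (hji : j < i) :
    ((r ^ a : ℕ) - 1 : ℤ) * ((r ^ j : ℕ) - 1) ≠ ((r ^ b : ℕ) - 1) * ((r ^ i : ℕ) - 1) := by
  intro h
  have hr1 : 1 < r := hr
  push_cast at h
  have hd : (r : ℤ) ^ (j + 1) ∣ (r : ℤ) ^ j := by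
    have e : (r : ℤ) ^ j = r ^ a * r ^ j - r ^ a - r ^ b * r ^ i + r ^ b + r ^ i := by linarith
    have hpow : ∀ n, j + 1 ≤ n → (r : ℤ) ^ (j + 1) ∣ r ^ n := fun n hn => pow_dvd_pow _ hn
    conv_rhs => rw [e]
    exact dvd_add (dvd_add (dvd_sub (dvd_sub ((hpow a (by omega)).mul_right _) (hpow a (by omega)))
      ((hpow b (by omega)).mul_right _)) (hpow b (by omega))) (hpow i (by omega))
  have := Int.le_of_dvd (pow_pos (by exact_mod_cast (show 0 < r by omega)) j) hd
  have := pow_lt_pow_right₀ (a := (r : ℤ)) (by exact_mod_cast hr1) (show j < j + 1 by omega)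
  linarith

end CfsgLib.NoDiv
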