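import Cfsg.Agent.NoDiv.Chars

/-!
# Automorphisms and normal subgroups
-/

set_option autoImplicit false
set_option linter.style.haveILetI false
open Cfsg CfsgLib CfsgLib.Chars CfsgLib.Chars.Induced

noncomputable section

namespace CfsgLib.NoDiv

universe u

variable {N : Type u} [Group N]

/-- Restriction of an action to an invariant subgroup. -/
def restrictAct {H Y : Type*} [Group H] [CommGroup Y] (φ : H →* MulAut Y) (B : Subgroup Y)
    (hB : ∀ h, ∀ y ∈ B, φ h y ∈ B) : H →* MulAut B where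
  toFun h :=
    { toFun := fun y => ⟨φ h y, hB h y y.2⟩
      invFun := fun y => ⟨φ h⁻¹ y, hB h⁻¹ y y.2⟩
      left_inv := fun y => Subtype.ext (by simp [map_inv])
      right_inv := fun y => Subtype.ext (by simp [map_inv])
      map_mul' := fun y z => Subtype.ext (map_mul (φ h) (y : Y) z) }
  map_one' := MulEquiv.ext fun y => Subtype.ext (by simp)
  map_mul' a b := MulEquiv.ext fun y => Subtype.ext (by simp)

theorem stab_restrictAct {H Y : Type*} [Group H] [CommGroup Y] (φ : H →* MulAut Y) (B : Subgroup Y)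
    (hB : ∀ h, ∀ y ∈ B, φ h y ∈ B) (y : B) : stab (restrictAct φ B hB) y = stab φ (y : Y) := by
  ext h
  rw [mem_stab, mem_stab, Subtype.ext_iff]
  rfl

/-- The automorphism of the linear characters of an invariant subgroup induced by `α`. -/
def dualAut (α : MulAut N) (K : Subgroup N) (h₁ : ∀ x ∈ K, α x ∈ K) (h₂ : ∀ x ∈ K, α⁻¹ x ∈ K) :
    MulAut (K →* ℂˣ) where
  toFun l := l.comp ((α⁻¹ : MulAut N).toMonoidHom.comp K.subtype |>.codRestrict K fun x => h₂ x x.2)
  invFun l := l.comp ((α : MulAut N).toMonoidHom.comp K.subtype |>.codRestrict K fun x => h₁ x x.2)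
  left_inv l := MonoidHom.ext fun x => congrArg l (Subtype.ext (by simp))
  right_inv l := MonoidHom.ext fun x => congrArg l (Subtype.ext (by simp))
  map_mul' _ _ := rfl

theorem dualAut_apply (α : MulAut N) (K : Subgroup N) (h₁ : ∀ x ∈ K, α x ∈ K)
    (h₂ : ∀ x ∈ K, α⁻¹ x ∈ K) (l : K →* ℂˣ) (x : K) :
    dualAut α K h₁ h₂ l x = l ⟨α⁻¹ x, h₂ x x.2⟩ := rfl

theorem dualAut_pow (α : MulAut N) (K : Subgroup N) (h₁ : ∀ x ∈ K, α x ∈ K)
    (h₂ : ∀ x ∈ K, α⁻¹ x ∈ K) {m : ℕ} (hm : α ^ m = 1) : dualAut α K h₁ h₂ ^ m = 1 := by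
  have key : ∀ (i : ℕ) (l : K →* ℂˣ) (x y : K), (y : N) = (α⁻¹ ^ i) x →
      (dualAut α K h₁ h₂ ^ i) l x = l y := by
    intro i
    induction i with
    | zero => intro l x y hy; rw [pow_zero, MulAut.one_apply, show y = x from Subtype.ext (by simpa using hy)]
    | succ i ih =>
      intro l x y hy
      rw [pow_succ', MulAut.mul_apply, dualAut_apply]
      exact ih l _ y (by rw [hy, pow_succ]; rfl)
  refine MulEquiv.ext fun l => MonoidHom.ext fun x => ?_
  exact key m l x x (by rw [inv_pow, hm, inv_one, MulAut.one_apply])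

theorem dualAut_compat (α : MulAut N) (K : Subgroup N) [K.Normal] (h₁ : ∀ x ∈ K, α x ∈ K)
    (h₂ : ∀ x ∈ K, α⁻¹ x ∈ K) (n : N) (l : K →* ℂˣ) :
    dualAut α K h₁ h₂ (dualConj K n l) = dualConj K (α n) (dualAut α K h₁ h₂ l) :=
  MonoidHom.ext fun x => congrArg l (Subtype.ext (by
    show n⁻¹ * α⁻¹ (x : N) * n⁻¹⁻¹ = α⁻¹ ((α n)⁻¹ * (x : N) * (α n)⁻¹⁻¹)
    rw [map_mul, map_mul, map_inv α⁻¹, map_inv α⁻¹, map_inv α⁻¹, MulAut.inv_apply_self]))

/-- If `α` moves `x` by `s`, fixes `s` and `s` has order prime to that of `α` modulo `W`,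
then `s ∈ W`. -/
theorem mem_of_fix (α : MulAut N) (W : Subgroup N) [W.Normal] (hW : ∀ x ∈ W, α x ∈ W)
    {m n : ℕ} (hm : α ^ m = 1) (hmn : m.Coprime n) (x : N)
    (hs : α (x⁻¹ * α x) * (x⁻¹ * α x)⁻¹ ∈ W) (hn : (x⁻¹ * α x) ^ n ∈ W) : x⁻¹ * α x ∈ W := by
  set s := x⁻¹ * α x with hsdef
  have hit : ∀ i : ℕ, ((α ^ i) x : N ⧸ W) = (x : N ⧸ W) * (s : N ⧸ W) ^ i := by
    have hcong : ∀ a b : N, (a : N ⧸ W) = b → (α a : N ⧸ W) = α b := fun a b h => by
      rw [QuotientGroup.eq] at h ⊢
      rw [← map_inv, ← map_mul]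
      exact hW _ h
    have hsfix : (α s : N ⧸ W) = s := by
      rw [QuotientGroup.eq_iff_div_mem, div_eq_mul_inv]
      exact hs
    intro i
    induction i with
    | zero => simp
    | succ i ih =>
      rw [pow_succ' α, MulAut.mul_apply, hcong _ (x * s ^ i) (by rw [ih]; rfl), map_mul, map_pow,
        QuotientGroup.mk_mul, QuotientGroup.mk_pow, hsfix,
        show α x = x * s by rw [hsdef, mul_inv_cancel_left], QuotientGroup.mk_mul, mul_assoc,
        ← pow_succ']
  rw [← QuotientGroup.eq_one_iff]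
  refine eq_one_of_coprime_pow hmn ?_ ?_
  · have h := hit m
    rw [hm, MulAut.one_apply, left_eq_mul] at h
    exact h
  · rw [← QuotientGroup.mk_pow, QuotientGroup.eq_one_iff]
    exact hn

/-- Conjugation by an element of a commutative quotient is central modulo the subgroup. -/
theorem exists_mul_swap (W : Subgroup N) [W.Normal]
    (hc : ∀ a b : N, a * b * a⁻¹ * b⁻¹ ∈ W) (a b : N) : ∃ w ∈ W, a * b = w * (b * a) :=
  ⟨_, hc a b, by group⟩

theorem dualConj_comm {K : Subgroup N} [K.Normal] (hc : ∀ a b : N, a * b * a⁻¹ * b⁻¹ ∈ K)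
    (a b : N) (l : K →* ℂˣ) :
    dualConj K a (dualConj K b l) = dualConj K b (dualConj K a l) := by
  obtain ⟨w, hw, h⟩ := exists_mul_swap K hc a b
  rw [← MulAut.mul_apply, ← map_mul, h, map_mul, MulAut.mul_apply, dualConj_eq_self_of_mem hw,
    map_mul, MulAut.mul_apply]

variable [Finite N]

/-- There is an irreducible character over every irreducible character of a normal subgroup. -/
theorem exists_over [Fintype N] {K : Subgroup N} [Fintype K] (φ : IrrCharacter K) :
    ∃ χ : IrrCharacter N, mult (fun k : K => (χ : N → ℂ) k) φ ≠ 0 := by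
  obtain ⟨χ, hχ⟩ := exists_mult_ne_zero (isCharacter_indFun K (isCharacter_coe φ)) fun h0 => by
    have h1 := congrFun h0 1
    rw [indFun_one_apply, Pi.zero_apply] at h1
    rcases mul_eq_zero.1 h1 with h2 | h2
    · exact Subgroup.index_ne_zero_of_finite (Nat.cast_eq_zero.1 h2)
    · exact map_one_ne_zero φ h2
  rw [mult_indFun_irr] at hχ
  exact ⟨χ, hχ⟩

/-- The degree is a multiple of the orbit length times the degree below. -/
theorem index_mul_dvd [Fintype N] {K : Subgroup N} [K.Normal] [Fintype K] (φ : IrrCharacter K)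
    (χ : IrrCharacter N) (hχ : mult (fun k : K => (χ : N → ℂ) k) φ ≠ 0) :
    (inertia K (φ : K → ℂ)).index * charDegree (φ : K → ℂ) ∣ charDegree (χ : N → ℂ) := by
  refine ⟨mult (fun k : K => (χ : N → ℂ) k) φ, ?_⟩
  apply Nat.cast_injective (R := ℂ)
  rw [Nat.cast_mul, Nat.cast_mul, coe_charDegree, coe_charDegree, clifford_one χ φ hχ]
  ring

/-- The constituent of a linear character. -/
theorem eq_one_of_linear_over [Fintype N] {K : Subgroup N} [Fintype K] (hK : K ≤ commutator N)
    (l : K →* ℂˣ) (χ : IrrCharacter N) (hχ : (χ : N → ℂ) 1 = 1)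
    (hl : mult (fun k : K => (χ : N → ℂ) k) (linChar l) ≠ 0) : l = 1 := by
  classical
  have hres : (fun k : K => (χ : N → ℂ) k) = (oneChar K : K → ℂ) := funext fun k => by
    rw [oneChar_apply]
    exact mem_commutator_iff.1 (hK k.2) χ hχ
  by_contra hne
  rw [hres, mult_irr, if_neg fun h => hne ((linChar_eq_oneChar_iff l).1 h.symm)] at hl
  exact hl rfl

/-- An orbit of linear characters under a fixed character of the group is `α`-invariant. -/
theorem exists_dualAut_eq [Fintype N] {K : Subgroup N} [K.Normal] [Fintype K] (α : MulAut N)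
    (h₁ : ∀ x ∈ K, α x ∈ K) (h₂ : ∀ x ∈ K, α⁻¹ x ∈ K) (l : K →* ℂˣ) (χ : IrrCharacter N)
    (hχ : mult (fun k : K => (χ : N → ℂ) k) (linChar l) ≠ 0)
    (hinv : ∀ n, (χ : N → ℂ) (α n) = (χ : N → ℂ) n) :
    ∃ n, dualAut α K h₁ h₂ l = dualConj K n l := by
  let e : K ≃* K :=
    { toFun := fun x => ⟨α⁻¹ x, h₂ x x.2⟩
      invFun := fun x => ⟨α x, h₁ x x.2⟩
      left_inv := fun x => Subtype.ext (by simp)
      right_inv := fun x => Subtype.ext (by simp)
      map_mul' := fun x y => Subtype.ext (map_mul (α⁻¹ : MulAut N) (x : N) y) }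
  have hres : (fun k : K => (χ : N → ℂ) (e k)) = fun k : K => (χ : N → ℂ) k := funext fun k => by
    show (χ : N → ℂ) (α⁻¹ (k : N)) = _
    rw [← hinv (α⁻¹ (k : N)), MulAut.apply_inv_self]
  have hm : mult (fun k : K => (χ : N → ℂ) k) (linChar (dualAut α K h₁ h₂ l)) ≠ 0 := by
    have : mult (fun k : K => (χ : N → ℂ) k) (linChar (dualAut α K h₁ h₂ l)) =
        mult (fun k : K => (χ : N → ℂ) k) (linChar l) := by
      simp only [mult]
      rw [← classInner_comp_equiv e (fun k : K => (χ : N → ℂ) k) (linChar l : K → ℂ), hres]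
      rfl
    rwa [this]
  obtain ⟨n, hn⟩ := mem_conjOrbit_of_mult_ne_zero χ (linChar l) _ hχ hm
  refine ⟨n, MonoidHom.ext fun k => Units.ext ?_⟩
  have h := congrFun (congrArg Subtype.val hn) k
  simp only [conjIrr_coe, conjFun_apply, linChar_apply] at h
  rw [← h, dualConj_apply]
  exact congrArg (fun z => ((l z : ℂˣ) : ℂ)) (Subtype.ext (by simp [ManzComponents.cj]))

/-- Automorphisms preserve the derived subgroup. -/
theorem apply_mem_commutator (α : MulAut N) {x : N} (hx : x ∈ commutator N) :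
    α x ∈ commutator N := by
  rw [mem_commutator_iff] at hx ⊢
  intro χ hχ
  exact hx ⟨_, isIrrCharacter_comp χ.2 α.toMonoidHom α.surjective⟩ (by simpa using hχ)

theorem apply_mem_commutator_sq (α : MulAut N) {x : N}
    (hx : x ∈ ⁅commutator N, commutator N⁆) : α x ∈ ⁅commutator N, commutator N⁆ := by
  have h : x ∈ (⁅commutator N, commutator N⁆).comap α.toMonoidHom := by
    refine (Subgroup.commutator_le.2 ?_) hx
    intro a ha b hb
    rw [Subgroup.mem_comap, map_commutatorElement]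
    exact Subgroup.commutator_mem_commutator (apply_mem_commutator α ha) (apply_mem_commutator α hb)
  exact h

end CfsgLib.NoDiv
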