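import Cfsg.Agent.NoDiv.Aut

/-!
# The commutator form of a linear character of `L'`

* `mem_of_ker`: if every non-linear character of `L` is fixed by an element acting fixed point
  freely on `L / L'`, then the commutator forms are non-degenerate.
-/

set_option autoImplicit false
set_option linter.style.haveILetI false
open Cfsg CfsgLib CfsgLib.Chars CfsgLib.Chars.Induced
open scoped commutatorElement

noncomputable section

namespace CfsgLib.NoDiv

universe u

variable {N : Type u} [Group N] {L : Subgroup N}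

/-- The commutator of two elements of `L`, as an element of `[L, L]`. -/
def cm (v w : L) : (⁅L, L⁆ : Subgroup N) :=
  ⟨⁅(v : N), (w : N)⁆, Subgroup.commutator_mem_commutator v.2 w.2⟩

variable [L.Normal]

theorem hom_cj {D : Subgroup N} [D.Normal] (μ : D →* ℂˣ) {g : N}
    (h : dualConj D g⁻¹ μ = μ) (d : D) : μ (ManzComponents.cj D g d) = μ d := by
  exact (congrArg μ (congrArg (fun z => ManzComponents.cj D z d) (inv_inv g).symm)).trans
    (DFunLike.congr_fun h d)

/-- The form attached to an `L`-invariant linear character of `[L, L]`. -/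
def bform (μ : (⁅L, L⁆ : Subgroup N) →* ℂˣ)
    (hμ : ∀ l ∈ L, dualConj ⁅L, L⁆ l μ = μ) : L →* (L →* ℂˣ) where
  toFun v :=
    { toFun := fun w => μ (cm v w)
      map_one' := by
        rw [show cm v 1 = 1 from Subtype.ext (by simp [cm]), map_one]
      map_mul' := fun w w' => by
        rw [show cm v (w * w') = cm v w * ManzComponents.cj ⁅L, L⁆ (w : N) (cm v w') from
          Subtype.ext (by simp [cm, ManzComponents.cj, commutatorElement_def]; group), map_mul,
          hom_cj μ (hμ _ (L.inv_mem w.2))] }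
  map_one' := MonoidHom.ext fun w => by
    show μ (cm 1 w) = 1
    rw [show cm (1 : L) w = 1 from Subtype.ext (by simp [cm]), map_one]
  map_mul' v v' := MonoidHom.ext fun w => by
    show μ (cm (v * v') w) = μ (cm v w) * μ (cm v' w)
    rw [show cm (v * v') w = ManzComponents.cj ⁅L, L⁆ (v : N) (cm v' w) * cm v w from
      Subtype.ext (by simp [cm, ManzComponents.cj, commutatorElement_def]; group), map_mul,
      hom_cj μ (hμ _ (L.inv_mem v.2)), mul_comm]

theorem bform_apply (μ : (⁅L, L⁆ : Subgroup N) →* ℂˣ)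
    (hμ : ∀ l ∈ L, dualConj ⁅L, L⁆ l μ = μ) (v w : L) : bform μ hμ v w = μ (cm v w) := rfl

theorem bform_eq_one_of_mem (μ : (⁅L, L⁆ : Subgroup N) →* ℂˣ)
    (hμ : ∀ l ∈ L, dualConj ⁅L, L⁆ l μ = μ) (v : L) (hv : (v : N) ∈ ⁅L, L⁆) : bform μ hμ v = 1 := by
  rw [← Subgroup.map_subtype_commutator] at hv
  obtain ⟨v', hv', h⟩ := hv
  rw [show v' = v from Subtype.ext h] at hv'
  exact Abelianization.commutator_subset_ker (bform μ hμ) hv'

/-- Two homomorphisms on `[L, L]` agreeing on commutators are equal. -/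
theorem hom_ext_cm {μ μ' : (⁅L, L⁆ : Subgroup N) →* ℂˣ} (h : ∀ v w : L, μ (cm v w) = μ' (cm v w)) :
    μ = μ' := by
  refine MonoidHom.ext fun d => ?_
  have key : ⁅L, L⁆ ≤ (μ.eqLocus μ').map (⁅L, L⁆ : Subgroup N).subtype := by
    rw [Subgroup.commutator_le]
    exact fun a ha b hb => ⟨cm ⟨a, ha⟩ ⟨b, hb⟩, h ⟨a, ha⟩ ⟨b, hb⟩, rfl⟩
  obtain ⟨d', hd', he⟩ := key d.2
  rw [show d' = d from Subtype.ext he] at hd'
  exact hd'

/-- An element acting trivially on `L / [L, L]` fixes every invariant character of `[L, L]`. -/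
theorem dualConj_eq_of_trivial (μ : (⁅L, L⁆ : Subgroup N) →* ℂˣ)
    (hμ : ∀ l ∈ L, dualConj ⁅L, L⁆ l μ = μ) {s : N}
    (hs : ∀ v ∈ L, s * v * s⁻¹ * v⁻¹ ∈ ⁅L, L⁆) : dualConj ⁅L, L⁆ s⁻¹ μ = μ := by
  refine hom_ext_cm fun v w => ?_
  have hb : ∀ a : L, bform μ hμ (ManzComponents.cj L s a) = bform μ hμ a := fun a => by
    have h := bform_eq_one_of_mem μ hμ (ManzComponents.cj L s a * a⁻¹) (hs a a.2)
    rwa [map_mul, map_inv, mul_inv_eq_one] at h
  have hb2 : ∀ (a b : L), bform μ hμ a (ManzComponents.cj L s b) = bform μ hμ a b := fun a b => by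
    have hm : (((ManzComponents.cj L s b) * b⁻¹ : L) : N) ∈ ⁅L, L⁆ := hs b b.2
    rw [← Subgroup.map_subtype_commutator] at hm
    obtain ⟨u, hu, h⟩ := hm
    rw [show u = ManzComponents.cj L s b * b⁻¹ from Subtype.ext h] at hu
    have h1 := Abelianization.commutator_subset_ker (bform μ hμ a) hu
    rwa [MonoidHom.mem_ker, map_mul, map_inv, mul_inv_eq_one] at h1
  calc dualConj ⁅L, L⁆ s⁻¹ μ (cm v w) = μ (cm (ManzComponents.cj L s v) (ManzComponents.cj L s w)) :=
        congrArg μ (Subtype.ext (by simp [cm, ManzComponents.cj, commutatorElement_def]; group))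
    _ = bform μ hμ (ManzComponents.cj L s v) (ManzComponents.cj L s w) := rfl
    _ = μ (cm v w) := by rw [hb, hb2, bform_apply]

/-- Non-degeneracy of the commutator forms. -/
theorem mem_of_ker [Finite N] (S : Subgroup N)
    (hL : ∀ a b : N, a * b * a⁻¹ * b⁻¹ ∈ L)
    (hfpf : ∀ h : N, h ∉ S → ∀ v ∈ L, h * v * h⁻¹ * v⁻¹ ∈ ⁅L, L⁆ → v ∈ ⁅L, L⁆)
    (hlam : ∀ χ : IrrCharacter L, (χ : L → ℂ) 1 ≠ 1 →
      ∃ h : N, h ∉ S ∧ h ∈ inertia L (χ : L → ℂ))
    (μ : (⁅L, L⁆ : Subgroup N) →* ℂˣ) (hμ : ∀ l ∈ L, dualConj ⁅L, L⁆ l μ = μ) (hμ1 : μ ≠ 1)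
    (v : L) (hv : bform μ hμ v = 1) : (v : N) ∈ ⁅L, L⁆ := by
  classical
  haveI := Fintype.ofFinite L
  let DL := commutator L
  haveI := Fintype.ofFinite DL
  let κ : DL →* (⁅L, L⁆ : Subgroup N) :=
    (L.subtype.comp DL.subtype).codRestrict _ fun d => by
      rw [← Subgroup.map_subtype_commutator]; exact Subgroup.mem_map_of_mem _ d.2
  obtain ⟨χ, hχ⟩ := exists_over (linChar (μ.comp κ))
  -- values on commutators
  have hval : ∀ lam : IrrCharacter L, mult (fun d : DL => (lam : L → ℂ) d) (linChar (μ.comp κ)) ≠ 0 →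
      ∀ d : DL, (lam : L → ℂ) d = (lam : L → ℂ) 1 * (μ (κ d) : ℂ) := by
    intro lam hlam d
    have hsingle : ∀ η ∈ (Set.finite_range fun x : L => conjIrr x (linChar (μ.comp κ))).toFinset,
        η = linChar (μ.comp κ) := by
      intro η hη
      obtain ⟨x, rfl⟩ := (Set.Finite.mem_toFinset _).1 hη
      refine Subtype.ext (funext fun e => ?_)
      rw [conjIrr_coe, conjFun_apply, linChar_apply, linChar_apply, MonoidHom.comp_apply,
        MonoidHom.comp_apply]
      refine congrArg Units.val ((congrArg μ ?_).trans (hom_cj μ (g := ((x⁻¹ : L) : N))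
        (hμ _ (by simp [x.2])) (κ e)))
      exact Subtype.ext (by simp [κ, ManzComponents.cj])
    have h1 := congrFun (clifford lam _ hlam) d
    have h0 := congrFun (clifford lam _ hlam) 1
    simp only [Pi.smul_apply, Finset.sum_apply, OneMemClass.coe_one] at h1 h0
    rw [Finset.sum_congr rfl fun η hη => congrArg (fun z : IrrCharacter DL => (z : DL → ℂ) d) (hsingle η hη)] at h1
    rw [Finset.sum_congr rfl fun η hη => congrArg (fun z : IrrCharacter DL => (z : DL → ℂ) 1) (hsingle η hη)] at h0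
    rw [h1, h0]
    simp [Finset.sum_const]
    ring
  set K := (bform μ hμ).ker with hK
  -- elements of the radical act by scalars
  have hscal : ∀ lam : IrrCharacter L, mult (fun d : DL => (lam : L → ℂ) d) (linChar (μ.comp κ)) ≠ 0 →
      ∃ ν : K →* ℂˣ, ∀ z : K, (lam : L → ℂ) z = (ν z : ℂ) * (lam : L → ℂ) 1 := by
    intro lam hlam
    obtain ⟨m, ρ, hρ, hρlam⟩ := id lam.2
    have hc : ∀ z : K, ∀ w, ρ (z : L) * ρ w = ρ w * ρ (z : L) := by
      intro z w
      let d : DL := ⟨⁅(z : L), w⁆, Subgroup.commutator_mem_commutator (Subgroup.mem_top _) (Subgroup.mem_top _)⟩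
      have h1 : μ (κ d) = 1 := by
        have hz : bform μ hμ (z : L) w = 1 := by rw [MonoidHom.mem_ker.1 z.2, MonoidHom.one_apply]
        rw [bform_apply] at hz
        refine (congrArg μ (Subtype.ext ?_)).trans hz
        simp [κ, d, cm, commutatorElement_def]
      have h2 := hval lam hlam d
      rw [h1, Units.val_one, mul_one, ← hρlam] at h2
      have h3 : ρ ⁅(z : L), w⁆ = 1 := rep_eq_one_of_character_eq ρ h2
      rw [commutatorElement_def] at h3
      calc ρ (z : L) * ρ w = ρ ((z : L) * w * (z : L)⁻¹ * w⁻¹) * (ρ w * ρ (z : L)) := by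
            rw [← map_mul, ← map_mul, ← map_mul]; congr 1; group
        _ = ρ w * ρ (z : L) := by rw [h3, one_mul]
    choose c hc' using fun z : K => exists_eq_smul_one_of_commute ρ hρ (ρ (z : L)) (hc z)
    have hlz : ∀ z : K, (lam : L → ℂ) z = c z * (lam : L → ℂ) 1 := by
      intro z
      rw [← hρlam, Representation.character, Representation.character, hc', map_smul,
        smul_eq_mul, map_one ρ]
    have h0 : (lam : L → ℂ) 1 ≠ 0 := map_one_ne_zero lam
    let ν₀ : K →* ℂ :=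
      { toFun := fun z => (lam : L → ℂ) z / (lam : L → ℂ) 1
        map_one' := by rw [OneMemClass.coe_one, div_self h0]
        map_mul' := fun z z' => by
          have h4 : (lam : L → ℂ) ((z * z' : K) : L) = c z * (c z' * (lam : L → ℂ) 1) := by
            rw [← hρlam, Representation.character, Representation.character, Subgroup.coe_mul,
              map_mul, hc', hc', smul_mul_smul_comm, one_mul, map_smul, smul_eq_mul,
              map_one ρ, mul_assoc]
          rw [h4, hlz, hlz]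
          field_simp }
    refine ⟨ν₀.toHomUnits, fun z => ?_⟩
    rw [MonoidHom.coe_toHomUnits]
    exact (div_mul_cancel₀ _ h0).symm
  -- the twisting
  by_contra hvD
  obtain ⟨l, hl⟩ : ∃ l : L →* ℂˣ, l v ≠ 1 := exists_linChar_ne_one fun h => hvD (by
    rw [← Subgroup.map_subtype_commutator]; exact Subgroup.mem_map_of_mem _ h)
  let χ' : IrrCharacter L := ⟨fun x => (l x : ℂ) * (χ : L → ℂ) x, isIrrCharacter_linear_mul χ.2 l⟩
  have hχ' : mult (fun d : DL => (χ' : L → ℂ) d) (linChar (μ.comp κ)) ≠ 0 := by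
    have : (fun d : DL => (χ' : L → ℂ) d) = fun d : DL => (χ : L → ℂ) d := funext fun d => by
      have h1 : l d = 1 := Abelianization.commutator_subset_ker l d.2
      simp [χ', h1]
    rwa [this]
  have hnl : ∀ lam : IrrCharacter L, mult (fun d : DL => (lam : L → ℂ) d) (linChar (μ.comp κ)) ≠ 0 →
      (lam : L → ℂ) 1 ≠ 1 := by
    intro lam hlam h1
    refine hμ1 (hom_ext_cm fun a b => ?_)
    have h2 := hval lam hlam ⟨⁅a, b⁆, Subgroup.commutator_mem_commutator (Subgroup.mem_top _) (Subgroup.mem_top _)⟩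
    rw [mem_commutator_iff.1 (Subgroup.commutator_mem_commutator (Subgroup.mem_top _) (Subgroup.mem_top _)) lam h1,
      h1, one_mul] at h2
    rw [MonoidHom.one_apply]
    refine Units.ext ?_
    rw [Units.val_one, h2]
    exact congrArg (fun z => ((μ z : ℂˣ) : ℂ)) (Subtype.ext (by simp [κ, cm, commutatorElement_def]))
  -- fixing elements preserve the radical
  have hpres : ∀ (lam : IrrCharacter L), mult (fun d : DL => (lam : L → ℂ) d) (linChar (μ.comp κ)) ≠ 0 →
      ∀ h : N, h ∈ inertia L (lam : L → ℂ) → ∀ z : K, ManzComponents.cj L h z ∈ K := by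
    intro lam hlam h hh z
    refine MonoidHom.mem_ker.2 (MonoidHom.ext fun w => ?_)
    rw [MonoidHom.one_apply, bform_apply]
    set w' := ManzComponents.cj L h⁻¹ w with hw'
    let d : DL := ⟨⁅(z : L), w'⁆, Subgroup.commutator_mem_commutator (Subgroup.mem_top _) (Subgroup.mem_top _)⟩
    let d' : DL := ⟨⁅ManzComponents.cj L h (z : L), w⁆, Subgroup.commutator_mem_commutator (Subgroup.mem_top _) (Subgroup.mem_top _)⟩
    have h1 : (lam : L → ℂ) d' = (lam : L → ℂ) d :=
      mem_inertia_iff_forall.1 hh _ _ (by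
        simp [d, d', w', ManzComponents.cj, commutatorElement_def]; group)
    rw [hval lam hlam, hval lam hlam, mul_right_inj' (map_one_ne_zero lam), Units.val_inj] at h1
    have hz : bform μ hμ (z : L) w' = 1 := by rw [MonoidHom.mem_ker.1 z.2, MonoidHom.one_apply]
    rw [bform_apply] at hz
    have hd : μ (κ d) = 1 := (congrArg μ (Subtype.ext (by simp [κ, d, cm, commutatorElement_def]))).trans hz
    rw [← hd, ← h1]
    exact congrArg μ (Subtype.ext (by simp [κ, d', cm, commutatorElement_def]))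
  -- a fixed homomorphism of the radical trivial on `[L, L]` is trivial
  have hrigid : ∀ h : N, h ∉ S → (hh : ∀ z : K, ManzComponents.cj L h z ∈ K) →
      ∀ ξ : K →* ℂˣ, (∀ z : K, ((z : L) : N) ∈ ⁅L, L⁆ → ξ z = 1) →
        (∀ z : K, ξ ⟨ManzComponents.cj L h z, hh z⟩ = ξ z) → ξ = 1 := by
    intro h hhS hh ξ hξD hξ
    let E : Subgroup K := (⁅L, L⁆ : Subgroup N).comap (L.subtype.comp K.subtype)
    let f : K →* K := ((ManzComponents.cj L h).comp K.subtype).codRestrict K hh
    have hfE : E ≤ E.comap f := fun z hz => (inferInstance : (⁅L, L⁆ : Subgroup N).Normal).conj_mem _ hz h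
    have hle : E ≤ ξ.ker := fun z hz => hξD z hz
    have h1 := hom_eq_one_of_fpf (QuotientGroup.map E E f hfE) (fun a ha => by
      obtain ⟨z, rfl⟩ := QuotientGroup.mk_surjective a
      rw [QuotientGroup.map_mk] at ha
      rw [QuotientGroup.eq_iff_div_mem] at ha
      rw [QuotientGroup.eq_one_iff]
      exact hfpf h hhS _ (z : L).2 (by rw [← div_eq_mul_inv]; exact ha))
      (QuotientGroup.lift E ξ hle) (fun a => by
        obtain ⟨z, rfl⟩ := QuotientGroup.mk_surjective a
        exact hξ z)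
    exact MonoidHom.ext fun z => DFunLike.congr_fun h1 (z : K ⧸ E)
  obtain ⟨ν, hν⟩ := hscal χ hχ
  obtain ⟨ν', hν'⟩ := hscal χ' hχ'
  obtain ⟨h₁, h₁S, hh₁⟩ := hlam χ (hnl χ hχ)
  obtain ⟨h₂, h₂S, hh₂⟩ := hlam χ' (hnl χ' hχ')
  have hfix : ∀ (lam : IrrCharacter L) (ξ : K →* ℂˣ),
      (∀ z : K, (lam : L → ℂ) z = (ξ z : ℂ) * (lam : L → ℂ) 1) →
      ∀ h : N, h ∈ inertia L (lam : L → ℂ) → ∀ z z' : K,
        ((z' : L) : N) = h * (z : L) * h⁻¹ → ξ z' = ξ z := by
    intro lam ξ hξ h hh z z' hz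
    have h1 := mem_inertia_iff_forall.1 hh _ _ hz
    rw [hξ, hξ, mul_left_inj' (map_one_ne_zero lam), Units.val_inj] at h1
    exact h1
  have hk1 := hpres χ hχ h₁ hh₁
  have hk2 := hpres χ' hχ' h₂ hh₂
  let ν₂ : K →* ℂˣ := ν.comp (((ManzComponents.cj L h₂).comp K.subtype).codRestrict K hk2)
  have hD : ∀ (lam : IrrCharacter L) (ξ : K →* ℂˣ),
      mult (fun d : DL => (lam : L → ℂ) d) (linChar (μ.comp κ)) ≠ 0 →
      (∀ z : K, (lam : L → ℂ) z = (ξ z : ℂ) * (lam : L → ℂ) 1) →
      ∀ z : K, ∀ d : DL, (d : L) = z → ξ z = μ (κ d) := by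
    intro lam ξ hlam hξ z d hd
    have h1 := hval lam hlam d
    rw [hd, hξ, mul_comm, mul_right_inj' (map_one_ne_zero lam), Units.val_inj] at h1
    exact h1
  have hquo : ν₂ / ν = 1 := by
    refine hrigid h₁ h₁S hk1 _ (fun z hz => ?_) (fun z => ?_)
    · rw [← Subgroup.map_subtype_commutator] at hz
      obtain ⟨d, hd, he⟩ := hz
      have he' : d = (z : L) := Subtype.ext he
      rw [MonoidHom.div_apply, div_eq_one]
      have hd2 : ManzComponents.cj L h₂ d ∈ DL := (Subgroup.commutator_le (H₁ := (⊤ : Subgroup L))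
        (H₂ := ⊤) (H₃ := DL.comap (ManzComponents.cj L h₂))).2 (fun a _ b _ => by
          rw [Subgroup.mem_comap, map_commutatorElement]
          exact Subgroup.commutator_mem_commutator (Subgroup.mem_top _) (Subgroup.mem_top _)) hd
      show ν ⟨_, hk2 z⟩ = ν z
      rw [hD χ ν hχ hν z ⟨d, hd⟩ he', hD χ ν hχ hν ⟨_, hk2 z⟩ ⟨_, hd2⟩
        (by show ManzComponents.cj L h₂ d = _; rw [he']),
        ← hD χ' ν' hχ' hν' z ⟨d, hd⟩ he', ← hD χ' ν' hχ' hν' ⟨_, hk2 z⟩ ⟨_, hd2⟩
        (by show ManzComponents.cj L h₂ d = _; rw [he'])]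
      exact hfix χ' ν' hν' h₂ hh₂ z ⟨_, hk2 z⟩ rfl
    · rw [MonoidHom.div_apply, MonoidHom.div_apply]
      congr 1
      · set a := (z : L)
        obtain ⟨w, hw, he⟩ := exists_mul_swap L hL h₂ h₁
        show ν ⟨_, hk2 ⟨_, hk1 z⟩⟩ = ν ⟨_, hk2 z⟩
        rw [← hfix χ ν hν h₁ hh₁ ⟨_, hk2 z⟩ ⟨_, hk1 ⟨_, hk2 z⟩⟩ rfl]
        apply Units.ext
        have e1 := hν ⟨_, hk2 ⟨_, hk1 z⟩⟩
        have e2 := hν ⟨_, hk1 ⟨_, hk2 z⟩⟩
        refine mul_right_cancel₀ (map_one_ne_zero χ) (e1.symm.trans (Eq.trans ?_ e2))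
        refine mem_inertia_iff_forall.1 (le_inertia (isClassFunction_coe χ) hw)
          (ManzComponents.cj L h₁ (ManzComponents.cj L h₂ a)) _ ?_
        show h₂ * (h₁ * (a : N) * h₁⁻¹) * h₂⁻¹ = w * (h₁ * (h₂ * (a : N) * h₂⁻¹) * h₁⁻¹) * w⁻¹
        calc h₂ * (h₁ * (a : N) * h₁⁻¹) * h₂⁻¹ = (h₂ * h₁) * a * (h₂ * h₁)⁻¹ := by group
          _ = _ := by rw [he]; group
      · exact hfix χ ν hν h₁ hh₁ z _ rfl
  have hν' : ∀ z : K, ν' z = l (z : L) * ν z := fun z => by
    apply Units.ext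
    have h1 := hν' z
    simp only [χ', map_one, Units.val_one, one_mul] at h1
    rw [hν z, ← mul_assoc] at h1
    rw [Units.val_mul]
    exact (mul_right_cancel₀ (map_one_ne_zero χ) h1).symm
  have hlK : (l.comp K.subtype) = 1 := by
    refine hrigid h₂ h₂S hk2 _ (fun z hz => ?_) (fun z => ?_)
    · rw [← Subgroup.map_subtype_commutator] at hz
      obtain ⟨d, hd, he⟩ := hz
      rw [show d = (z : L) from Subtype.ext he] at hd
      exact Abelianization.commutator_subset_ker l hd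
    · have h3 : ν' ⟨_, hk2 z⟩ = ν' z := by
        apply Units.ext
        refine mul_right_cancel₀ (map_one_ne_zero χ') ?_
        have e := mem_inertia_iff_forall.1 hh₂ (z : L) (ManzComponents.cj L h₂ z) rfl
        obtain ⟨ν'', hν''⟩ := hscal χ' hχ'
        have u1 : ∀ u : K, (χ' : L → ℂ) u = (ν' u : ℂ) * (χ' : L → ℂ) 1 := fun u => by
          rw [hν' u]; simp only [χ', map_one, Units.val_one, one_mul, Units.val_mul]; rw [hν u, mul_assoc]
        rw [← u1, ← u1]
        exact e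
      rw [hν', hν', show ν ⟨_, hk2 z⟩ = ν z from div_eq_one.1
          (DFunLike.congr_fun hquo z : ν ⟨_, hk2 z⟩ / ν z = 1),
        mul_left_inj] at h3
      exact h3
  exact hl (DFunLike.congr_fun hlK ⟨v, MonoidHom.mem_ker.2 hv⟩)

end CfsgLib.NoDiv
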