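import Cfsg.Agent.ManzComponents.Main
import Cfsg.Agent.Chars.Basic
import Cfsg.Agent.Chars.Induced.Covering
import Cfsg.Agent.Eq.Def_Characters
import Cfsg.Agent.NoDiv.Abelian

/-!
# Character lemmas for groups with incomparable non-linear degrees
-/

set_option autoImplicit false
set_option linter.style.haveILetI false
open Cfsg CfsgLib CfsgLib.Chars CfsgLib.Chars.Induced

noncomputable section

namespace CfsgLib.NoDiv

universe u

variable {N : Type u} [Group N] [Finite N]

/-- When every non-linear character vanishes at `g`, the centraliser has the order of the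
abelianisation. -/
theorem card_centralizer_of_vanish {g : N}
    (h : ∀ χ : IrrCharacter N, (χ : N → ℂ) 1 ≠ 1 → (χ : N → ℂ) g = 0) :
    Nat.card (Subgroup.centralizer ({g} : Set N)) = (commutator N).index := by
  classical
  apply Nat.cast_injective (R := ℝ)
  rw [← sum_irr_norm_sq, ← card_linear_irr, Nat.card_eq_fintype_card, Fintype.card_subtype,
    Finset.card_filter, Nat.cast_sum]
  refine Finset.sum_congr rfl fun χ _ => ?_
  split_ifs with h1
  · obtain ⟨l, rfl⟩ := exists_linChar_eq χ h1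
    have hfin : IsOfFinOrder (l g : ℂ) := ((Units.coeHom ℂ).comp l).isOfFinOrder (isOfFinOrder_of_finite g)
    rw [linChar_apply, hfin.norm_eq_one]
    simp
  · rw [h χ h1]
    simp

/-- Non-linear characters fixed by `α` vanish outside `{n | α n ≡ n mod N'}`. -/
theorem mem_commutator_of_apply_ne_zero (α : MulAut N)
    (hinv : ∀ χ : IrrCharacter N, (χ : N → ℂ) 1 ≠ 1 → ∀ n, (χ : N → ℂ) (α n) = (χ : N → ℂ) n)
    (χ : IrrCharacter N) (hχ : (χ : N → ℂ) 1 ≠ 1) {n : N} (hn : (χ : N → ℂ) n ≠ 0) :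
    α n * n⁻¹ ∈ commutator N := by
  by_contra hc
  obtain ⟨l, hl⟩ := exists_linChar_ne_one hc
  have h := hinv ⟨_, isIrrCharacter_linear_mul χ.2 l⟩ (by simpa using hχ) n
  simp only [hinv χ hχ n, mul_left_inj' hn] at h
  exact hl (by rw [map_mul, map_inv, Units.ext h, mul_inv_cancel])

/-- Conjugation on the linear characters of a normal subgroup. -/
def dualConj (M : Subgroup N) [M.Normal] : N →* MulAut (M →* ℂˣ) where
  toFun n :=
    { toFun := fun l => l.comp (ManzComponents.cj M n⁻¹)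
      invFun := fun l => l.comp (ManzComponents.cj M n)
      left_inv := fun l => MonoidHom.ext fun m => by
        simp only [MonoidHom.comp_apply, ← ManzComponents.cj_mul, inv_mul_cancel]
        exact congrArg l (Subtype.ext (by simp [ManzComponents.cj]))
      right_inv := fun l => MonoidHom.ext fun m => by
        simp only [MonoidHom.comp_apply, ← ManzComponents.cj_mul, mul_inv_cancel]
        exact congrArg l (Subtype.ext (by simp [ManzComponents.cj]))
      map_mul' := fun _ _ => rfl }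
  map_one' := MulEquiv.ext fun l => MonoidHom.ext fun m =>
    congrArg l (Subtype.ext (by simp [ManzComponents.cj]))
  map_mul' a b := MulEquiv.ext fun l => MonoidHom.ext fun m => by
    show l (ManzComponents.cj M (a * b)⁻¹ m) = l (ManzComponents.cj M b⁻¹ (ManzComponents.cj M a⁻¹ m))
    rw [← ManzComponents.cj_mul, mul_inv_rev]

omit [Finite N] in
theorem dualConj_apply (M : Subgroup N) [M.Normal] (n : N) (l : M →* ℂˣ) (m : M) :
    dualConj M n l m = l (ManzComponents.cj M n⁻¹ m) := rfl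

omit [Finite N] in
theorem dualConj_eq_self_of_mem {M : Subgroup N} [M.Normal] {n : N} (hn : n ∈ M) (l : M →* ℂˣ) :
    dualConj M n l = l :=
  MonoidHom.ext fun m => ManzComponents.hom_cj_mem l (M.inv_mem hn) m

omit [Finite N] in
theorem inertia_linChar (M : Subgroup N) [M.Normal] (l : M →* ℂˣ) :
    inertia M (linChar l : M → ℂ) = stab (dualConj M) l := by
  ext x
  rw [mem_inertia, mem_stab, funext_iff, MonoidHom.ext_iff]
  refine forall_congr' fun m => ?_
  rw [conjFun_apply, linChar_apply, linChar_apply, Units.val_inj, dualConj_apply]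
  exact Eq.congr_left (congrArg l (Subtype.ext (by simp [ManzComponents.cj])))

/-- Over a linear character of a normal subgroup with abelian complement the degree is the orbit
length. -/
theorem charDegree_eq_index [Fintype N] {M : Subgroup N} [M.Normal] [Fintype M] (H : Subgroup N)
    (hdec : ∀ n : N, ∃ m ∈ M, ∃ h ∈ H, n = m * h) (hH : ∀ a ∈ H, ∀ b ∈ H, a * b = b * a)
    (l : M →* ℂˣ) (χ : IrrCharacter N)
    (hχ : mult (fun m : M => (χ : N → ℂ) m) (linChar l) ≠ 0) :
    charDegree (χ : N → ℂ) = (stab (dualConj M) l).index := by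
  classical
  set T := stab (dualConj M) l with hT
  have hdvd : T.index ∣ charDegree (χ : N → ℂ) := by
    refine ⟨mult (fun m : M => (χ : N → ℂ) m) (linChar l), ?_⟩
    apply Nat.cast_injective (R := ℂ)
    rw [coe_charDegree, clifford_one χ (linChar l) hχ, inertia_linChar, linChar_map_one, Nat.cast_mul]
    ring
  refine Nat.dvd_antisymm ?_ hdvd
  have hMT : M ≤ T := fun n hn => dualConj_eq_self_of_mem hn l
  have hNc : ∀ a b : N, a * b * a⁻¹ * b⁻¹ ∈ M := by
    intro a b
    obtain ⟨m, hm, h, hh, rfl⟩ := hdec a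
    obtain ⟨m', hm', h', hh', rfl⟩ := hdec b
    have h0 : h * h' = h' * h := hH h hh h' hh'
    rw [← QuotientGroup.eq_one_iff]
    push_cast [QuotientGroup.mk_mul, QuotientGroup.mk_inv]
    rw [(QuotientGroup.eq_one_iff m).2 hm, (QuotientGroup.eq_one_iff m').2 hm', one_mul, one_mul]
    rw [mul_inv_eq_one, mul_inv_eq_iff_eq_mul, ← QuotientGroup.mk_mul, h0, QuotientGroup.mk_mul]
  -- the common kernel of the conjugates
  let W : Subgroup N :=
    { carrier := {w | ∃ hw : w ∈ M, ∀ g : N, dualConj M g l ⟨w, hw⟩ = 1}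
      one_mem' := ⟨M.one_mem, fun g => map_one (dualConj M g l)⟩
      mul_mem' := by
        rintro a b ⟨ha, h1⟩ ⟨hb, h2⟩
        refine ⟨M.mul_mem ha hb, fun g => ?_⟩
        rw [show (⟨a * b, M.mul_mem ha hb⟩ : M) = ⟨a, ha⟩ * ⟨b, hb⟩ from rfl, map_mul, h1, h2,
          one_mul]
      inv_mem' := by
        rintro a ⟨ha, h1⟩
        refine ⟨M.inv_mem ha, fun g => ?_⟩
        rw [show (⟨a⁻¹, M.inv_mem ha⟩ : M) = ⟨a, ha⟩⁻¹ from rfl, map_inv, h1, inv_one] }
  haveI hWn : W.Normal := ⟨by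
    rintro w ⟨hw, h1⟩ g
    refine ⟨‹M.Normal›.conj_mem _ hw g, fun k => ?_⟩
    rw [← h1 (g⁻¹ * k), dualConj_apply, dualConj_apply]
    refine congrArg l (Subtype.ext ?_)
    show k⁻¹ * (g * w * g⁻¹) * k⁻¹⁻¹ = (g⁻¹ * k)⁻¹ * w * (g⁻¹ * k)⁻¹⁻¹
    group⟩
  have hTW : ∀ a ∈ T, ∀ b ∈ T, a * b * a⁻¹ * b⁻¹ ∈ W := by
    intro a ha b hb
    refine ⟨hNc a b, fun g => ?_⟩
    set l' := dualConj M g l with hl'
    have hfix : ∀ t ∈ T, ∀ m : M, l' (ManzComponents.cj M t m) = l' m := by
      intro t ht m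
      have h1 : dualConj M t⁻¹ l' = l' := by
        have h2 : dualConj M t⁻¹ l = l := T.inv_mem ht
        obtain ⟨m0, hm0, hcomm⟩ : ∃ m0 ∈ M, t⁻¹ * g = m0 * (g * t⁻¹) :=
          ⟨t⁻¹ * g * t⁻¹⁻¹ * g⁻¹, hNc _ _, by group⟩
        rw [hl', ← MulAut.mul_apply, ← map_mul, hcomm, map_mul, MulAut.mul_apply, map_mul,
          MulAut.mul_apply, h2, dualConj_eq_self_of_mem hm0]
      exact (congrArg l' (congrArg (fun z => ManzComponents.cj M z m) (inv_inv t).symm)).trans
        (DFunLike.congr_fun h1 m)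
    obtain ⟨m1, hm1, h1, hh1, rfl⟩ := hdec a
    obtain ⟨m2, hm2, h2, hh2, rfl⟩ := hdec b
    have hh1T : h1 ∈ T := (T.mul_mem_cancel_left (hMT hm1)).1 ha
    have hh2T : h2 ∈ T := (T.mul_mem_cancel_left (hMT hm2)).1 hb
    have hc : h1 * h2 = h2 * h1 := hH h1 hh1 h2 hh2
    have key : (⟨_, hNc (m1 * h1) (m2 * h2)⟩ : M) = ⟨m1, hm1⟩ * ManzComponents.cj M h1 ⟨m2, hm2⟩ *
        (ManzComponents.cj M h2 ⟨m1, hm1⟩)⁻¹ * (⟨m2, hm2⟩ : M)⁻¹ := by
      apply Subtype.ext
      show m1 * h1 * (m2 * h2) * (m1 * h1)⁻¹ * (m2 * h2)⁻¹ =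
        m1 * (h1 * m2 * h1⁻¹) * (h2 * m1 * h2⁻¹)⁻¹ * m2⁻¹
      have e1 : h2 * h1⁻¹ = h1⁻¹ * h2 := by
        rw [eq_inv_mul_iff_mul_eq, ← mul_assoc, hc, mul_inv_cancel_right]
      calc m1 * h1 * (m2 * h2) * (m1 * h1)⁻¹ * (m2 * h2)⁻¹
          = m1 * h1 * m2 * (h2 * h1⁻¹) * m1⁻¹ * h2⁻¹ * m2⁻¹ := by group
        _ = _ := by rw [e1]; group
    rw [key, map_mul, map_mul, map_mul, map_inv, map_inv, hfix _ hh1T, hfix _ hh2T]
    rw [mul_comm (l' ⟨m1, hm1⟩), mul_inv_cancel_right, mul_inv_cancel]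
  have hWker : W ≤ charKer (χ : N → ℂ) := by
    rintro w ⟨hw, h1⟩
    rw [mem_charKer_iff (isCharacter_coe χ)]
    have h2 := congrFun (clifford χ (linChar l) hχ) ⟨w, hw⟩
    have h3 := congrFun (clifford χ (linChar l) hχ) 1
    simp only [Pi.smul_apply, Finset.sum_apply, OneMemClass.coe_one] at h2 h3
    rw [h2, h3]
    congr 1
    refine Finset.sum_congr rfl fun η hη => ?_
    obtain ⟨x, rfl⟩ := (Set.Finite.mem_toFinset _).1 hη
    rw [conjIrr_coe, conjFun_apply, conjFun_apply, linChar_apply, linChar_apply]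
    have h4 := h1 x
    rw [dualConj_apply] at h4
    have h5 : ∀ (u : M), u = ManzComponents.cj M x⁻¹ ⟨w, hw⟩ → (l u : ℂ) = 1 := fun u hu => by
      rw [hu, h4, Units.val_one]
    rw [h5 _ (Subtype.ext (by simp [ManzComponents.cj]))]
    rw [show ∀ u : M, (u : N) = 1 → (l u : ℂ) = 1 from fun u hu => by
      rw [show u = 1 from Subtype.ext hu, map_one, Units.val_one]]
    simp
  obtain ⟨ψ, hψ⟩ := exists_inflate_eq W χ hWker
  set A := T.map (QuotientGroup.mk' W) with hA
  haveI : T.Normal := ⟨fun t ht g => by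
    have : g * t * g⁻¹ * t⁻¹ ∈ T := hMT (hNc g t)
    simpa using T.mul_mem this ht⟩
  haveI : A.Normal := Subgroup.Normal.map inferInstance _ (QuotientGroup.mk'_surjective W)
  haveI : IsMulCommutative A := ⟨⟨by
    rintro ⟨_, a, ha, rfl⟩ ⟨_, b, hb, rfl⟩
    apply Subtype.ext
    show QuotientGroup.mk' W a * QuotientGroup.mk' W b = QuotientGroup.mk' W b * QuotientGroup.mk' W a
    rw [← map_mul, ← map_mul, QuotientGroup.mk'_apply, QuotientGroup.mk'_apply, QuotientGroup.eq_iff_div_mem]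
    have := hTW a ha b hb
    rw [div_eq_mul_inv, mul_inv_rev, show a * b * (a⁻¹ * b⁻¹) = a * b * a⁻¹ * b⁻¹ by group]
    exact this⟩⟩
  have hi : A.index = T.index := by
    rw [hA, Subgroup.index_map_eq T (QuotientGroup.mk'_surjective W) ?_]
    rw [QuotientGroup.ker_mk']
    rintro w ⟨hw, -⟩
    exact hMT hw
  have hdeg : charDegree (χ : N → ℂ) = charDegree (ψ : N ⧸ W → ℂ) := by
    apply Nat.cast_injective (R := ℂ)
    rw [coe_charDegree, coe_charDegree, ← hψ, inflate_apply, QuotientGroup.mk_one]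
  rw [hdeg, ← hi]
  exact CfsgLib.Chars.Induced.ito A ψ

end CfsgLib.NoDiv
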