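import Cfsg.Agent.NoDiv.Aut

/-!
# The derived subgroup and a centraliser complementing it
-/

set_option autoImplicit false
set_option linter.style.haveILetI false
open Cfsg CfsgLib CfsgLib.Chars CfsgLib.Chars.Induced
open scoped commutatorElement

noncomputable section

namespace CfsgLib.NoDiv

universe u

variable {N : Type u} [Group N] [Finite N]

/-- Linear characters detect fixed points modulo the derived subgroup. -/
theorem exists_fixed_hom {A : Type u} [Group A] [Finite A] (f : A →* A) {v : A}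
    (hv : v ∉ commutator A) (hfix : v⁻¹ * f v ∈ commutator A) :
    ∃ l : A →* ℂˣ, l ≠ 1 ∧ ∀ a, l (f a) = l a := by
  classical
  let d : (A →* ℂˣ) →* (A →* ℂˣ) :=
    { toFun := fun l => l.comp f / l
      map_one' := MonoidHom.ext fun a => by simp
      map_mul' := fun l m => MonoidHom.ext fun a => by simp [div_eq_mul_inv]; ac_rfl }
  by_contra hne
  push Not at hne
  have hinj : Function.Injective d := by
    rw [injective_iff_map_eq_one]
    intro l hl
    by_contra h1
    obtain ⟨a, ha⟩ := hne l h1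
    exact ha (div_eq_one.1 (DFunLike.congr_fun hl a))
  obtain ⟨l, hl⟩ := exists_linChar_ne_one hv
  obtain ⟨m, rfl⟩ := Finite.surjective_of_injective hinj l
  have h2 := Abelianization.commutator_subset_ker m hfix
  rw [MonoidHom.mem_ker, map_mul, map_inv, inv_mul_eq_one] at h2
  exact hl (by simp [d, h2])

omit [Finite N] in
/-- The standard data: `L = N'` and a complement `C` centralising `y`. -/
theorem exists_complement [Finite N] {q : ℕ} (hq : q.Prime) (hcop : (Nat.card (commutator N)).Coprime q)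
    {y : N} (hyq : y ^ q = 1)
    (hvan : ∀ χ : IrrCharacter N, (χ : N → ℂ) 1 ≠ 1 → (χ : N → ℂ) y = 0) :
    (∀ n : N, ∃ l ∈ commutator N, ∃ h ∈ Subgroup.centralizer ({y} : Set N), n = l * h) ∧
      (∀ x ∈ Subgroup.centralizer ({y} : Set N), x ∈ commutator N → x = 1) ∧
      (∀ a ∈ Subgroup.centralizer ({y} : Set N), ∀ b ∈ Subgroup.centralizer ({y} : Set N),
        a * b = b * a) := by
  classical
  haveI := Fact.mk hq
  set L := commutator N with hL
  set C := Subgroup.centralizer ({y} : Set N) with hC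
  have hNc : ∀ a b : N, a * b * a⁻¹ * b⁻¹ ∈ L := fun a b =>
    Subgroup.commutator_mem_commutator (Subgroup.mem_top a) (Subgroup.mem_top b)
  have hdec : ∀ n : N, ∃ l ∈ L, ∃ h ∈ C, n = l * h := by
    intro n
    let P := Subgroup.zpowers y
    have hP : IsPGroup q P := fun a => ⟨1, by
      obtain ⟨i, hi⟩ := a.2
      refine Subtype.ext ?_
      rw [pow_one, SubgroupClass.coe_pow, ← hi, OneMemClass.coe_one]
      show (y ^ i) ^ q = 1
      rw [← zpow_natCast, ← zpow_mul, mul_comm, zpow_mul, zpow_natCast, hyq, one_zpow]⟩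
    let S := {z : N // z * n⁻¹ ∈ L}
    letI : MulAction P S :=
      { smul := fun a z => ⟨(a : N) * z * (a : N)⁻¹, by
          have h1 := L.mul_mem (hNc (a : N) z) z.2
          rwa [show (a : N) * (z : N) * (a : N)⁻¹ * (z : N)⁻¹ * ((z : N) * n⁻¹) =
            (a : N) * (z : N) * (a : N)⁻¹ * n⁻¹ by group] at h1⟩
        one_smul := fun z => Subtype.ext (show ((1 : P) : N) * z * ((1 : P) : N)⁻¹ = z by simp)
        mul_smul := fun a b z => Subtype.ext (show ((a * b : P) : N) * z * ((a * b : P) : N)⁻¹ =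
          a * (b * z * (b : N)⁻¹) * (a : N)⁻¹ by push_cast; group) }
    have hcard : ¬ q ∣ Nat.card S := by
      rw [Nat.card_congr ((Equiv.mulRight n⁻¹).subtypeEquiv (fun z => Iff.rfl) : S ≃ L)]
      exact (hq.coprime_iff_not_dvd).1 hcop.symm
    obtain ⟨⟨z, hz⟩, hfix⟩ := hP.nonempty_fixed_point_of_prime_not_dvd_card S hcard
    have h1 : y * z * y⁻¹ = z := congrArg Subtype.val (hfix ⟨y, Subgroup.mem_zpowers y⟩)
    refine ⟨n * z⁻¹, ?_, z, ?_, by group⟩
    · have := L.inv_mem hz
      rwa [mul_inv_rev, inv_inv] at this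
    · rw [hC, Subgroup.mem_centralizer_singleton_iff]
      exact (mul_inv_eq_iff_eq_mul.1 h1).symm
  have hdisj : ∀ x ∈ C, x ∈ L → x = 1 := by
    intro x hxC hxL
    haveI := Fintype.ofFinite N
    let f : L × C → N := fun p => p.1 * p.2
    have hsurj : Function.Surjective f := fun n => by
      obtain ⟨l, hl, h, hh, rfl⟩ := hdec n
      exact ⟨(⟨l, hl⟩, ⟨h, hh⟩), rfl⟩
    have hc : Nat.card (L × C) = Nat.card N := by
      rw [Nat.card_prod, card_centralizer_of_vanish hvan, Subgroup.card_mul_index]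
    have hinj := ((Nat.bijective_iff_surjective_and_card f).2 ⟨hsurj, hc⟩).1
    have := @hinj (⟨x, hxL⟩, 1) (1, ⟨x, hxC⟩) (by simp [f])
    exact congrArg (fun p : L × C => (p.1 : N)) this
  refine ⟨hdec, hdisj, fun a ha b hb => ?_⟩
  have h1 := hdisj _ (C.mul_mem (C.mul_mem (C.mul_mem ha hb) (C.inv_mem ha)) (C.inv_mem hb)) (hNc a b)
  rw [mul_inv_eq_one, mul_inv_eq_iff_eq_mul] at h1
  exact h1

/-- An element with a fixed point in a section of `N'` is centralised by `α` modulo `N'`. -/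
theorem mem_commutator_of_fixed (α : MulAut N)
    (hinv : ∀ χ : IrrCharacter N, (χ : N → ℂ) 1 ≠ 1 → ∀ n, (χ : N → ℂ) (α n) = (χ : N → ℂ) n)
    (C : Subgroup N) (hdec : ∀ n : N, ∃ l ∈ commutator N, ∃ h ∈ C, n = l * h)
    (hdisj : ∀ x ∈ C, x ∈ commutator N → x = 1) (hC : ∀ a ∈ C, ∀ b ∈ C, a * b = b * a)
    (W U : Subgroup N) [W.Normal] [U.Normal] (hWL : W ≤ commutator N) (hUL : U ≤ commutator N)
    (hcent : ∀ l ∈ commutator N, ∀ u ∈ U, l * u * l⁻¹ * u⁻¹ ∈ W)
    {h v : N} (hv : v ∈ U) (hvW : v ∉ W) (hfix : h * v * h⁻¹ * v⁻¹ ∈ W) :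
    α h * h⁻¹ ∈ commutator N := by
  classical
  obtain ⟨l, hl, c, hc, rfl⟩ := hdec h
  have hcfix : c * v * c⁻¹ * v⁻¹ ∈ W := by
    have h1 := hcent l hl (c * v * c⁻¹) (‹U.Normal›.conj_mem v hv c)
    have h2 := W.mul_mem (W.inv_mem h1) hfix
    rwa [show (l * (c * v * c⁻¹) * l⁻¹ * (c * v * c⁻¹)⁻¹)⁻¹ * (l * c * v * (l * c)⁻¹ * v⁻¹) =
      c * v * c⁻¹ * v⁻¹ by group] at h2
  suffices hgoal : α c * c⁻¹ ∈ commutator N by
    rw [show α (l * c) * (l * c)⁻¹ = α l * (α c * c⁻¹) * l⁻¹ by rw [map_mul]; group]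
    exact mul_mem (mul_mem (apply_mem_commutator α hl) hgoal) (inv_mem hl)
  by_contra hnot
  have hvan : ∀ χ : IrrCharacter (N ⧸ W), (χ : N ⧸ W → ℂ) 1 ≠ 1 →
      (χ : N ⧸ W → ℂ) (c : N ⧸ W) = 0 := by
    intro χ hχ
    by_contra hne
    exact hnot (mem_commutator_of_apply_ne_zero α hinv (inflate W χ)
      (by simpa [inflate_apply] using hχ) (by simpa [inflate_apply] using hne))
  have hcard := card_centralizer_of_vanish hvan
  have hcomm : commutator (N ⧸ W) = (commutator N).map (QuotientGroup.mk' W) := by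
    rw [commutator_def, commutator_def, Subgroup.map_commutator,
      Subgroup.map_top_of_surjective _ (QuotientGroup.mk'_surjective W)]
  rw [hcomm, Subgroup.index_map_eq _ (QuotientGroup.mk'_surjective W)
    (by rw [QuotientGroup.ker_mk']; exact hWL)] at hcard
  -- `C` and `v` give too many commuting cosets
  let g : C → Subgroup.centralizer ({(c : N ⧸ W)} : Set (N ⧸ W)) := fun a => ⟨((a : N) : N ⧸ W), by
    rw [Subgroup.mem_centralizer_singleton_iff, ← QuotientGroup.mk_mul, ← QuotientGroup.mk_mul,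
      hC a a.2 c hc]⟩
  have hginj : Function.Injective g := by
    intro a b hab
    have h1 : (((a : N) : N ⧸ W)) = ((b : N) : N ⧸ W) := congrArg Subtype.val hab
    rw [QuotientGroup.eq] at h1
    exact Subtype.ext (inv_mul_eq_one.1 (hdisj _ (C.mul_mem (C.inv_mem a.2) b.2) (hWL h1)))
  have hnsurj : ¬ Function.Surjective g := by
    intro hs
    obtain ⟨a, ha⟩ := hs ⟨(v : N ⧸ W), by
      rw [Subgroup.mem_centralizer_singleton_iff, ← QuotientGroup.mk_mul, ← QuotientGroup.mk_mul,
        eq_comm, QuotientGroup.eq_iff_div_mem, div_eq_mul_inv, mul_inv_rev]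
      rwa [show c * v * (c⁻¹ * v⁻¹) = c * v * c⁻¹ * v⁻¹ by group]⟩
    have h1 : ((a : N) : N ⧸ W) = (v : N ⧸ W) := congrArg Subtype.val ha
    rw [QuotientGroup.eq] at h1
    have hav : (a : N) ∈ commutator N := by
      have := (commutator N).mul_mem (hUL hv) ((commutator N).inv_mem (hWL h1))
      rwa [mul_inv_rev, inv_inv, mul_inv_cancel_left] at this
    rw [hdisj _ a.2 hav, inv_one, one_mul] at h1
    exact hvW h1
  haveI := Fintype.ofFinite C
  haveI := Fintype.ofFinite (Subgroup.centralizer ({(c : N ⧸ W)} : Set (N ⧸ W)))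
  have hlt := Fintype.card_lt_of_injective_not_surjective g hginj hnsurj
  rw [← Nat.card_eq_fintype_card, ← Nat.card_eq_fintype_card, hcard] at hlt
  -- but `C` has order `|N : N'|`
  let f : C → N ⧸ commutator N := fun a => ((a : N) : N ⧸ commutator N)
  have hfs : Function.Surjective f := by
    intro x
    obtain ⟨n, rfl⟩ := QuotientGroup.mk_surjective x
    obtain ⟨l', hl', a, ha, rfl⟩ := hdec n
    refine ⟨⟨a, ha⟩, ?_⟩
    show (a : N ⧸ commutator N) = ((l' * a : N) : N ⧸ commutator N)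
    rw [QuotientGroup.mk_mul, (QuotientGroup.eq_one_iff l').2 hl', one_mul]
  have := Nat.card_le_card_of_surjective f hfs
  rw [← Subgroup.index] at this
  exact absurd this (not_le.2 hlt)

end CfsgLib.NoDiv
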