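import Cfsg.Agent.NoDiv.Aut
import Cfsg.Agent.Chars.Induced.Extension
import Cfsg.Agent.Chars.GaloisDegree.Basic
import Cfsg.Agent.Chars.ItoMichler.Basic
import Cfsg.Agent.Chars.Basic.Restrict

/-!
# Normal `q`-complements and non-abelian quotients

* `isMulComm_quotient`: with incomparable non-linear degrees and a non-`q`-power degree, the
  quotient by a normal `q`-complement is abelian.
-/

set_option autoImplicit false
set_option linter.style.haveILetI false
open Cfsg CfsgLib CfsgLib.Chars CfsgLib.Chars.Induced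
open scoped commutatorElement

noncomputable section

namespace CfsgLib.NoDiv

universe u

variable {N : Type u} [Group N] [Finite N]

/-- With incomparable non-linear degrees, a non-linear character below forces an abelian
quotient by a normal `q`-complement. -/
theorem quotient_comm {q : ℕ} (hq : q.Prime) (M : Subgroup N) [M.Normal]
    (hcop : (Nat.card M).Coprime q) {k : ℕ} (hidx : M.index = q ^ k)
    (hnd : ∀ χ χ' : IrrCharacter N, (χ : N → ℂ) 1 ≠ 1 → (χ' : N → ℂ) 1 ≠ 1 →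
      charDegree (χ : N → ℂ) ∣ charDegree (χ' : N → ℂ) →
        charDegree (χ : N → ℂ) = charDegree (χ' : N → ℂ))
    (φ : IrrCharacter M) (hφ : (φ : M → ℂ) 1 ≠ 1) (a b : N) : a * b * a⁻¹ * b⁻¹ ∈ M := by
  classical
  haveI := Fintype.ofFinite N
  haveI := Fintype.ofFinite M
  haveI := Fintype.ofFinite (N ⧸ M)
  by_contra hab
  obtain ⟨β, -, hβ⟩ := CfsgLib.GaloisDegree.exists_nonlinear (P := N ⧸ M)
    (g := ⁅(a : N ⧸ M), (b : N ⧸ M)⁆)
    (Subgroup.commutator_mem_commutator (Subgroup.mem_top _) (Subgroup.mem_top _))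
    (fun h => hab ((QuotientGroup.eq_one_iff _).1 (by simpa [commutatorElement_def] using h)))
  set β₁ := inflate M β with hβ₁
  have hβ1nl : (β₁ : N → ℂ) 1 ≠ 1 := fun h => hβ (by
    rw [← charDegree_inflate (N := M)]; exact (charDegree_eq_one_iff β₁).2 h)
  set d := charDegree (φ : M → ℂ) with hd
  have hd1 : d ≠ 1 := fun h => hφ ((charDegree_eq_one_iff φ).1 h)
  set T := inertia M (φ : M → ℂ) with hT
  have hMT : M ≤ T := le_inertia (isClassFunction_coe φ)
  haveI := Fintype.ofFinite T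
  set M₀ := M.subgroupOf T with hM₀
  haveI := Fintype.ofFinite M₀
  haveI := Fintype.ofFinite (T ⧸ M₀)
  let e : M₀ ≃* M := Subgroup.subgroupOfEquivOfLe hMT
  let θ' : IrrCharacter M₀ :=
    ⟨fun x => (φ : M → ℂ) (e x), isIrrCharacter_comp φ.2 e.toMonoidHom e.surjective⟩
  have hinv : ∀ g : T, conjFun M₀ g (θ' : M₀ → ℂ) = θ' := by
    intro g
    funext x
    show conjFun M₀ g (θ' : M₀ → ℂ) x = (φ : M → ℂ) (e x)
    have hx := congrFun (mem_inertia.1 g.2) (e x)
    rw [conjFun_apply] at hx ⊢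
    exact (congrArg (φ : M → ℂ) (Subtype.ext rfl)).trans hx
  have hθ1 : (θ' : M₀ → ℂ) 1 = (d : ℂ) := by
    rw [hd, coe_charDegree]
    exact congrArg (φ : M → ℂ) (map_one e)
  have hcardM : Nat.card M₀ = Nat.card M := Nat.card_congr e.toEquiv
  have hidx₀ : M₀.index ∣ q ^ k := hidx ▸ by
    rw [hM₀, ← Subgroup.relIndex_mul_index hMT]
    exact dvd_mul_right _ _
  have hcop₀ : Nat.Coprime M₀.index (detOrder (θ' : M₀ → ℂ) * d) := by
    refine Nat.Coprime.coprime_dvd_left hidx₀ ((Nat.Coprime.pow_left k ?_))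
    refine Nat.Coprime.mul_right ?_ ?_
    · exact Nat.Coprime.coprime_dvd_right ((detOrder_dvd_card (isCharacter_coe θ')).trans hcardM.dvd) hcop.symm
    · exact Nat.Coprime.coprime_dvd_right (charDegree_dvd_card φ) hcop.symm
  obtain ⟨χ, hχ, -, -⟩ := exists_canonical_extension θ' hinv hθ1 hcop₀
  -- all characters of `T / M` are linear
  have hdeg : ∀ γ : IrrCharacter (T ⧸ M₀), ∃ ξ : IrrCharacter N,
      charDegree (ξ : N → ℂ) = T.index * (d * charDegree (γ : T ⧸ M₀ → ℂ)) := by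
    intro γ
    let ψ : IrrCharacter T := ⟨_, gallagher_isIrrCharacter χ θ' hχ γ⟩
    have hψv : ∀ n : M, (ψ : T → ℂ) (Subgroup.inclusion hMT n) =
        (φ : M → ℂ) n * (γ : T ⧸ M₀ → ℂ) 1 := by
      intro n
      let n₀ : M₀ := ⟨Subgroup.inclusion hMT n, Subgroup.mem_subgroupOf.2 n.2⟩
      show (χ : T → ℂ) n₀ * (γ : T ⧸ M₀ → ℂ) ((n₀ : T) : T ⧸ M₀) = _
      rw [hχ, (QuotientGroup.eq_one_iff (n₀ : T)).2 n₀.2]
      rfl
    have hψ : mult (fun n : M => (ψ : T → ℂ) (Subgroup.inclusion hMT n)) φ ≠ 0 := by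
      have hc : IsCharacter M (fun n : M => (ψ : T → ℂ) (Subgroup.inclusion hMT n)) :=
        isCharacter_comp (isCharacter_coe ψ) (Subgroup.inclusion hMT)
      rw [mult_ne_zero_iff hc]
      rw [show (fun n : M => (ψ : T → ℂ) (Subgroup.inclusion hMT n)) =
        ((γ : T ⧸ M₀ → ℂ) 1) • (φ : M → ℂ) from funext fun n => by
          rw [hψv, Pi.smul_apply, smul_eq_mul, mul_comm], Induced.classInner_smul_left, classInner_irr_self,
        mul_one]
      exact map_one_ne_zero γ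
    refine ⟨⟨_, isIrrCharacter_indFun_inertia hT hMT ψ hψ⟩, ?_⟩
    apply Nat.cast_injective (R := ℂ)
    rw [coe_charDegree, Nat.cast_mul, Nat.cast_mul]
    show indFun T (ψ : T → ℂ) 1 = _
    rw [indFun_one_apply, hd, coe_charDegree, coe_charDegree]
    have := hψv 1
    rw [map_one] at this
    rw [this]
  have hTd : ∀ γ : IrrCharacter (T ⧸ M₀), T.index * (d * charDegree (γ : T ⧸ M₀ → ℂ)) ≠ 1 :=
    fun γ h => hd1 (Nat.eq_one_of_mul_eq_one_right (Nat.eq_one_of_mul_eq_one_left h))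
  obtain ⟨ξ₁, hξ₁⟩ := hdeg (oneChar _)
  rw [show charDegree ((oneChar (T ⧸ M₀) : IrrCharacter (T ⧸ M₀)) : T ⧸ M₀ → ℂ) = 1 from
    (charDegree_eq_one_iff _).2 (by simp [oneChar_apply]), mul_one] at hξ₁
  have hlin : ∀ γ : IrrCharacter (T ⧸ M₀), charDegree (γ : T ⧸ M₀ → ℂ) = 1 := by
    intro γ
    obtain ⟨ξ, hξ⟩ := hdeg γ
    have h := hnd ξ₁ ξ (fun h => by
        have := (charDegree_eq_one_iff ξ₁).2 h
        rw [hξ₁] at this
        exact hd1 (Nat.eq_one_of_mul_eq_one_left this))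
      (fun h => hTd γ (hξ ▸ (charDegree_eq_one_iff ξ).2 h))
      (by rw [hξ₁, hξ, ← mul_assoc]; exact dvd_mul_right _ _)
    rw [hξ₁, hξ, ← mul_assoc] at h
    exact (mul_eq_left₀ (Nat.mul_ne_zero Subgroup.index_ne_zero_of_finite (charDegree_pos φ).ne')).1 h.symm
  -- an abelian subgroup of `N / M` of index `|N : T|`
  set A := T.map (QuotientGroup.mk' M) with hA
  haveI : IsMulCommutative A := ⟨⟨by
    rintro ⟨_, x, hx, rfl⟩ ⟨_, y, hy, rfl⟩
    apply Subtype.ext
    show QuotientGroup.mk' M x * QuotientGroup.mk' M y = QuotientGroup.mk' M y * QuotientGroup.mk' M x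
    have h1 := ItoMichler.comm_of_linear hlin ((⟨x, hx⟩ : T) : T ⧸ M₀) ((⟨y, hy⟩ : T) : T ⧸ M₀)
    rw [← QuotientGroup.mk_mul, ← QuotientGroup.mk_mul, QuotientGroup.eq_iff_div_mem] at h1
    rw [← map_mul, ← map_mul, QuotientGroup.mk'_apply, QuotientGroup.mk'_apply,
      QuotientGroup.eq_iff_div_mem]
    exact Subgroup.mem_subgroupOf.1 h1⟩⟩
  have hle := charDegree_le_index_of_isMulCommutative β A
  rw [hA, Subgroup.index_map_eq T (QuotientGroup.mk'_surjective M)
    (by rw [QuotientGroup.ker_mk']; exact hMT)] at hle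
  obtain ⟨i, -, hi⟩ := (Nat.dvd_prime_pow hq).1 (hidx ▸ M.index_eq_card ▸ charDegree_dvd_card β)
  obtain ⟨j, -, hj⟩ := (Nat.dvd_prime_pow hq).1 (hidx ▸ Subgroup.index_dvd_of_le hMT)
  rw [hi, hj] at hle
  have hij : i ≤ j := (Nat.pow_le_pow_iff_right hq.one_lt).1 hle
  have hdvd : charDegree (β₁ : N → ℂ) ∣ charDegree (ξ₁ : N → ℂ) := by
    rw [hξ₁, hβ₁, charDegree_inflate, hi, hj]
    exact (pow_dvd_pow q hij).mul_right _
  have heq := hnd β₁ ξ₁ hβ1nl (fun h => by
    have := (charDegree_eq_one_iff ξ₁).2 h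
    rw [hξ₁] at this
    exact hd1 (Nat.eq_one_of_mul_eq_one_left this)) hdvd
  rw [hξ₁, hβ₁, charDegree_inflate, hi, hj] at heq
  have hddvd : d ∣ q ^ i := heq ▸ dvd_mul_left _ _
  have hdq : Nat.Coprime d (q ^ i) :=
    (Nat.Coprime.coprime_dvd_left (charDegree_dvd_card φ) hcop).pow_right i
  exact hd1 (Nat.Coprime.eq_one_of_dvd hdq hddvd)

/-- A coprime automorphism moving some element modulo a normal `q`-complement moves an element of
order `q` modulo it. -/
theorem exists_moved_of_order {q : ℕ} (hq : q.Prime) (M : Subgroup N) [M.Normal]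
    (hcop : (Nat.card M).Coprime q) {k : ℕ} (hidx : M.index = q ^ k)
    (hc : ∀ a b : N, a * b * a⁻¹ * b⁻¹ ∈ M) (α : MulAut N) {m : ℕ} (hm : α ^ m = 1)
    (hmq : m.Coprime q) (hne : ∃ n, α n * n⁻¹ ∉ M) : ∃ y : N, y ^ q = 1 ∧ α y * y⁻¹ ∉ M := by
  obtain ⟨n₀, hn₀⟩ := hne
  have hpk : ∀ x : N, x ^ q ^ k ∈ M := fun x => hidx ▸ M.pow_index_mem x
  have hαM : ∀ x ∈ M, α x ∈ M := by
    intro x hx
    rw [← QuotientGroup.eq_one_iff]
    refine eq_one_of_coprime_pow ((Nat.Coprime.pow_right k hcop)) ?_ ?_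
    · rw [← QuotientGroup.mk_pow, QuotientGroup.eq_one_iff, ← map_pow,
        orderOf_dvd_iff_pow_eq_one.1 (Subgroup.orderOf_dvd_natCard M hx), map_one]
      exact M.one_mem
    · rw [← QuotientGroup.mk_pow, QuotientGroup.eq_one_iff]
      exact hpk _
  letI : CommGroup (N ⧸ M) :=
    { (inferInstance : Group (N ⧸ M)) with
      mul_comm := fun a b => by
        obtain ⟨a, rfl⟩ := QuotientGroup.mk_surjective a
        obtain ⟨b, rfl⟩ := QuotientGroup.mk_surjective b
        rw [← QuotientGroup.mk_mul, ← QuotientGroup.mk_mul, QuotientGroup.eq_iff_div_mem,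
          div_eq_mul_inv, mul_inv_rev, ← mul_assoc]
        exact hc a b }
  by_contra hall
  push Not at hall
  -- an element of order `q` modulo `M` lifts to one of order `q`
  have hfix : ∀ x : N, x ^ q ∈ M → α x * x⁻¹ ∈ M := by
    intro x hx
    set c := Nat.card M
    have h1 : (x ^ c) ^ q = 1 := by
      rw [← pow_mul, mul_comm, pow_mul]
      exact orderOf_dvd_iff_pow_eq_one.1 (Subgroup.orderOf_dvd_natCard M hx)
    have h2 := hall _ h1
    rw [← QuotientGroup.eq_one_iff] at h2 ⊢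
    rw [map_pow, QuotientGroup.mk_mul, QuotientGroup.mk_inv, QuotientGroup.mk_pow,
      QuotientGroup.mk_pow, ← inv_pow, ← mul_pow] at h2
    refine eq_one_of_coprime_pow hcop (by rwa [QuotientGroup.mk_mul, QuotientGroup.mk_inv]) ?_
    rw [← QuotientGroup.mk_pow, QuotientGroup.eq_one_iff]
    have h3 : ((α x * x⁻¹) ^ q : N) ∈ M := by
      rw [← QuotientGroup.eq_one_iff, QuotientGroup.mk_pow, QuotientGroup.mk_mul, QuotientGroup.mk_inv,
        mul_pow, inv_pow, ← QuotientGroup.mk_pow, ← QuotientGroup.mk_pow, ← map_pow,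
        (QuotientGroup.eq_one_iff _).2 (hαM _ hx), (QuotientGroup.eq_one_iff _).2 hx, inv_one, mul_one]
    exact h3
  have hstep : ∀ i : ℕ, ∀ x : N, x ^ q ^ i ∈ M → α x * x⁻¹ ∈ M := by
    intro i
    induction i with
    | zero =>
      intro x hx
      rw [pow_zero, pow_one] at hx
      exact M.mul_mem (hαM _ hx) (M.inv_mem hx)
    | succ i ih =>
      intro x hx
      have h1 : α (x ^ q) * (x ^ q)⁻¹ ∈ M := ih _ (by rwa [← pow_mul, ← pow_succ'])
      have h2 : (x⁻¹ * α x) ^ q ∈ M := by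
        rw [← QuotientGroup.eq_one_iff, QuotientGroup.mk_pow, QuotientGroup.mk_mul, QuotientGroup.mk_inv,
          mul_pow, inv_pow, mul_comm, ← QuotientGroup.mk_pow, ← QuotientGroup.mk_pow, ← map_pow,
          ← QuotientGroup.mk_inv, ← QuotientGroup.mk_mul, QuotientGroup.eq_one_iff]
        exact h1
      have h3 := mem_of_fix α M hαM hm hmq x (hfix _ h2) h2
      have := ‹M.Normal›.conj_mem _ h3 x
      rwa [mul_inv_cancel_left] at this
  exact hn₀ (hstep k n₀ (hpk n₀))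

end CfsgLib.NoDiv
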